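import Cfsg.Agent.H55.CO.Frame

/-!
# COORD: `V = E^m`, `Q v = Σ N(v_i)`, the commutant of `z` is `Matrix (Fin m) (Fin m) E` (helper55, S3852)
-/

set_option autoImplicit false
set_option linter.unusedVariables false
set_option linter.unusedSectionVars false

namespace Cfsg.Agent.H55.CO

open Cfsg.Agent.H308.CA QuadraticMap Cfsg.Agent.LieClassical.OrthCore Module Matrix

variable {F : Type} {V : Type*} [Field F] [AddCommGroup V] [Module F V] {Q : QuadraticForm F V}

/-- the commutant of `z` is the star ring `Matrix (Fin m) (Fin m) E` -/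
structure Cmt (Q : QuadraticForm F V) (z : V ≃ₗ[F] V) (m : ℕ) (E : Type) [CommRing E] [StarRing E] where
  /-- the representation -/
  Φ : Matrix (Fin m) (Fin m) E →+* Module.End F V
  inj : Function.Injective Φ
  range : ∀ T : Module.End F V, (∀ v, T (z v) = z (T v)) ↔ ∃ A, Φ A = T
  adj : ∀ A v w, polar Q (Φ A v) w = polar Q v (Φ (star A) w)
  isom : ∀ A, star A * A = 1 → ∀ v, Q (Φ A v) = Q v

section

variable {E : Type} [CommRing E] [StarRing E] {a : F} (c : Cf F E a) {m : ℕ} (b : Fin m → V) (z : V ≃ₗ[F] V)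

/-- the coordinate map -/
noncomputable def ph : (Fin m → E) →+ V where
  toFun u := ∑ i, (c.re (u i) • b i + c.im (u i) • z (b i))
  map_zero' := by
    apply Finset.sum_eq_zero
    intro i _
    have h1 : c.re (0 : E) = 0 := c.re_eq (y := 0) (by simp)
    have h2 : c.im (0 : E) = 0 := c.im_eq (x := 0) (by simp)
    change c.re (0 : E) • b i + c.im (0 : E) • z (b i) = 0
    rw [h1, h2, zero_smul, zero_smul, add_zero]
  map_add' u w := by
    rw [← Finset.sum_add_distrib]
    apply Finset.sum_congr rfl
    intro i _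
    change c.re (u i + w i) • b i + c.im (u i + w i) • z (b i) = _
    rw [c.re_add, c.im_add, add_smul, add_smul]
    abel

theorem ph_apply (u : Fin m → E) : ph c b z u = ∑ i, (c.re (u i) • b i + c.im (u i) • z (b i)) := rfl

theorem ph_smul (t : F) (u : Fin m → E) : ph c b z (c.i t • u) = t • ph c b z u := by
  rw [ph_apply, ph_apply, Finset.smul_sum]
  apply Finset.sum_congr rfl
  intro i _
  rw [Pi.smul_apply, smul_eq_mul, c.re_smul, c.im_smul, smul_add, smul_smul, smul_smul]

variable {z} (hz : ∀ v, z (z v) = a • z v - v)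
include hz

theorem ph_om (u : Fin m → E) : ph c b z (c.om • u) = z (ph c b z u) := by
  rw [ph_apply, ph_apply, map_sum]
  apply Finset.sum_congr rfl
  intro i _
  rw [Pi.smul_apply, smul_eq_mul, c.re_om, c.im_om, map_add, map_smul, map_smul, hz]
  module

theorem ph_mul (e : E) (u : Fin m → E) : ph c b z (e • u) = c.re e • ph c b z u + c.im e • z (ph c b z u) := by
  conv_lhs => rw [c.eq e]
  rw [add_smul, map_add, mul_smul, ph_smul, ph_smul, ph_om c b hz]

variable {b} (hzO : z ∈ O Q) (ha : a * a ≠ 4) (hb : Fr Q z b)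
include hzO ha hb c

theorem polar_fr (i : Fin m) (u : Fin m → E) : polar Q (b i) (ph c b z u) = 2 * c.re (u i) + a * c.im (u i) := by
  have h1 : ∀ (x : V) (s : Finset (Fin m)) (f : Fin m → V), polar Q x (∑ j ∈ s, f j) = ∑ j ∈ s, polar Q x (f j) := by
    intro x s f
    exact map_sum (polarBilin Q x) f s
  rw [ph_apply, h1, Finset.sum_eq_single i]
  · rw [polar_add_right, polar_smul_right, polar_smul_right, polar_self', hb.q1, polar_z hzO ha hz, hb.q1]
    simp only [smul_eq_mul]
    ring
  · intro j _ hj
    rw [polar_add_right, polar_smul_right, polar_smul_right, hb.orth i j (Ne.symm hj), hb.orth' i j (Ne.symm hj)]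
    simp
  · intro h
    exact absurd (Finset.mem_univ i) h

theorem ph_inj : Function.Injective (ph c b z) := by
  rw [injective_iff_map_eq_zero]
  intro u hu
  funext i
  have h1 := polar_fr c hz hzO ha hb i u
  have h2 := polar_fr c hz hzO ha hb i (c.om • u)
  rw [ph_om c b hz, hu, map_zero, polar_zero_right] at h2
  rw [hu, polar_zero_right] at h1
  rw [Pi.smul_apply, smul_eq_mul, c.re_om, c.im_om] at h2
  have hD : (4 - a * a) ≠ 0 := fun h => ha (by linear_combination -h)
  have h3 : (4 - a * a) * c.im (u i) = 0 := by linear_combination -a * h1 + 2 * h2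
  have h4 : (4 - a * a) * c.re (u i) = 0 := by linear_combination (-2 + a * a) * h1 - a * h2
  have h5 := (mul_eq_zero.1 h3).resolve_left hD
  have h6 := (mul_eq_zero.1 h4).resolve_left hD
  rw [c.eq (u i), h5, h6, map_zero, zero_mul, add_zero]
  rfl

theorem ph_surj : Function.Surjective (ph c b z) := by
  intro w
  obtain ⟨x, y, rfl⟩ := hb.span w
  refine ⟨fun i => c.i (x i) + c.i (y i) * c.om, ?_⟩
  rw [ph_apply]
  apply Finset.sum_congr rfl
  intro i _
  rw [c.re_mk, c.im_mk]

theorem Q_ph (u : Fin m → E) : c.i (Q (ph c b z u)) = star u ⬝ᵥ u := by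
  have h0 : ∀ s : Finset (Fin m), c.i (Q (∑ i ∈ s, (c.re (u i) • b i + c.im (u i) • z (b i)))) =
      ∑ i ∈ s, star (u i) * u i := by
    intro s
    induction s using Finset.induction_on with
    | empty => rw [Finset.sum_empty, Finset.sum_empty, QuadraticMap.map_zero, map_zero]
    | insert i s hi ih =>
      rw [Finset.sum_insert hi, Finset.sum_insert hi, Q_add, map_add, map_add, ih, Q_plane hzO ha hz, hb.q1, mul_one,
        ← c.norm_mk, ← c.eq]
      have h1 : polar Q (c.re (u i) • b i + c.im (u i) • z (b i))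
          (∑ j ∈ s, (c.re (u j) • b j + c.im (u j) • z (b j))) = 0 := by
        have h2 := map_sum (polarBilin Q (c.re (u i) • b i + c.im (u i) • z (b i)))
          (fun j => c.re (u j) • b j + c.im (u j) • z (b j)) s
        rw [polarBilin_apply_apply] at h2
        rw [h2]
        apply Finset.sum_eq_zero
        intro j hj
        have hij : i ≠ j := fun h => hi (h ▸ hj)
        rw [polarBilin_apply_apply, polar_add_left, polar_smul_left, polar_smul_left, polar_add_right, polar_add_right,
          polar_smul_right, polar_smul_right, polar_smul_right, polar_smul_right, hb.orth i j hij, hb.orth' i j hij,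
          polar_map hzO, hb.orth i j hij, polar_comm Q (z (b i)), hb.orth' j i (Ne.symm hij)]
        simp
      rw [h1, map_zero, add_zero]
  exact h0 Finset.univ

theorem polar_ph (u w : Fin m → E) : c.i (polar Q (ph c b z u) (ph c b z w)) = star u ⬝ᵥ w + star w ⬝ᵥ u := by
  rw [polar, map_sub, map_sub, ← map_add, Q_ph c hz hzO ha hb, Q_ph c hz hzO ha hb, Q_ph c hz hzO ha hb, star_add,
    add_dotProduct, dotProduct_add, dotProduct_add]
  ring

/-- **COORD** -/
theorem exists_co : Nonempty (Cmt Q z m E) := by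
  let e : (Fin m → E) ≃+ V := AddEquiv.ofBijective (ph c b z) ⟨ph_inj c hz hzO ha hb, ph_surj c hz hzO ha hb⟩
  have he : ∀ u, e u = ph c b z u := fun u => rfl
  have hes : ∀ v, ph c b z (e.symm v) = v := fun v => e.apply_symm_apply v
  have hse : ∀ u, e.symm (ph c b z u) = u := fun v => e.symm_apply_apply v
  have hsm : ∀ (t : F) (v : V), e.symm (t • v) = c.i t • e.symm v := by
    intro t v
    rw [AddEquiv.symm_apply_eq, he, ph_smul, hes]
  have hso : ∀ v : V, e.symm (z v) = c.om • e.symm v := by
    intro v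
    rw [AddEquiv.symm_apply_eq, he, ph_om c b hz, hes]
  let Φ : Matrix (Fin m) (Fin m) E →+* Module.End F V :=
    { toFun := fun A =>
        { toFun := fun v => ph c b z (A *ᵥ e.symm v)
          map_add' := fun v w => by rw [map_add, mulVec_add, map_add]
          map_smul' := fun t v => by rw [hsm, mulVec_smul, ph_smul]; rfl }
      map_one' := by
        ext v
        change ph c b z ((1 : Matrix (Fin m) (Fin m) E) *ᵥ e.symm v) = v
        rw [one_mulVec, hes]
      map_mul' := fun A B => by
        ext v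
        change ph c b z ((A * B) *ᵥ e.symm v) = ph c b z (A *ᵥ e.symm (ph c b z (B *ᵥ e.symm v)))
        rw [hse, mulVec_mulVec]
      map_zero' := by
        ext v
        change ph c b z ((0 : Matrix (Fin m) (Fin m) E) *ᵥ e.symm v) = 0
        rw [zero_mulVec, map_zero]
      map_add' := fun A B => by
        ext v
        change ph c b z ((A + B) *ᵥ e.symm v) = ph c b z (A *ᵥ e.symm v) + ph c b z (B *ᵥ e.symm v)
        rw [add_mulVec, map_add] }
  have hΦ : ∀ A v, Φ A v = ph c b z (A *ᵥ e.symm v) := fun A v => rfl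
  refine ⟨⟨Φ, ?_, ?_, ?_, ?_⟩⟩
  · intro A B h
    apply Matrix.ext_of_mulVec_single
    intro i
    apply ph_inj c hz hzO ha hb
    have h1 := LinearMap.congr_fun h (ph c b z (Pi.single i 1))
    rw [hΦ, hΦ, hse] at h1
    exact h1
  · intro T
    constructor
    · intro hT
      let T' : (Fin m → E) →ₗ[E] (Fin m → E) :=
        { toFun := fun u => e.symm (T (ph c b z u))
          map_add' := fun u w => by rw [map_add, map_add, map_add]
          map_smul' := fun s u => by
            rw [ph_mul c b hz, map_add, map_smul, map_smul, hT, map_add, hsm, hsm, hso, smul_smul, ← add_smul,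
              ← c.eq]
            rfl }
      refine ⟨LinearMap.toMatrix' T', ?_⟩
      ext v
      rw [hΦ]
      have h1 : LinearMap.toMatrix' T' *ᵥ e.symm v = T' (e.symm v) := by
        rw [← Matrix.toLin'_apply, Matrix.toLin'_toMatrix']
      rw [h1]
      change ph c b z (e.symm (T (ph c b z (e.symm v)))) = T v
      rw [hes, hes]
    · rintro ⟨A, rfl⟩ v
      rw [hΦ, hΦ, hso, mulVec_smul, ph_om c b hz]
  · intro A v w
    apply c.inj
    obtain ⟨u, rfl⟩ := ph_surj c hz hzO ha hb v
    obtain ⟨t, rfl⟩ := ph_surj c hz hzO ha hb w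
    rw [hΦ, hΦ, hse, hse, polar_ph c hz hzO ha hb, polar_ph c hz hzO ha hb, star_mulVec, star_mulVec,
      ← dotProduct_mulVec, ← dotProduct_mulVec, ← star_eq_conjTranspose, ← star_eq_conjTranspose, star_star]
  · intro A hA v
    apply c.inj
    obtain ⟨u, rfl⟩ := ph_surj c hz hzO ha hb v
    rw [hΦ, hse, Q_ph c hz hzO ha hb, Q_ph c hz hzO ha hb, star_mulVec, ← dotProduct_mulVec, mulVec_mulVec,
      ← star_eq_conjTranspose, hA, one_mulVec]

theorem card_co [Finite F] : Nat.card V = Nat.card F ^ (2 * m) := by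
  rw [← Nat.card_congr (Equiv.ofBijective _ ⟨ph_inj c hz hzO ha hb, ph_surj c hz hzO ha hb⟩), Nat.card_fun,
    c.card_eq, Nat.card_fin, ← pow_mul]

end

/-- **COORD**, final form: `F` finite, `Q` nondegenerate, `z` an isometry with `z² = a z - 1`, `a² ≠ 4`. -/
theorem coord {F : Type} [Field F] [Finite F] {V : Type*} [AddCommGroup V] [Module F V] [FiniteDimensional F V]
    {Q : QuadraticForm F V} (hnd : Nondeg Q) {z : V ≃ₗ[F] V} (hzO : z ∈ O Q) {a : F} (ha : a * a ≠ 4)
    (hz : ∀ v, z (z v) = a • z v - v) {m : ℕ} (hm : Module.finrank F V = 2 * m) :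
    ∃ (E : Type) (_ : CommRing E) (_ : StarRing E), Gd E ∧ (∀ p, CharP F p → CharP E p) ∧
      Nat.card E = Nat.card F ^ 2 ∧ Nonempty (Cmt Q z m E) := by
  obtain ⟨E, i, s, hG, ⟨c⟩⟩ := exists_cf F a ha
  obtain ⟨m', b, hb⟩ := exists_fr hG c hnd hzO ha hz
  have h1 := card_co c hz hzO ha hb
  have h2 : Nat.card V = Nat.card F ^ (2 * m) := by
    rw [← hm, Module.natCard_eq_pow_finrank (K := F)]
  have h3 : m' = m := by
    have h4 := Nat.pow_right_injective Finite.one_lt_card (h1.symm.trans h2)
    omega
  subst h3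
  exact ⟨E, i, s, hG, fun p hp => c.charP p, c.card_eq, exists_co c hz hzO ha hb⟩

end Cfsg.Agent.H55.CO
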