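import Cfsg.Agent.H55.CO.FrameO
import Cfsg.Agent.H308.CA.Main1

/-!
# FRAME-O (helper55, S3852)
-/

set_option autoImplicit false

namespace Cfsg.Agent.H55.CO

open Cfsg.Agent.H381.Car Cfsg.Agent.H502.Car

universe u

theorem claim1' (hF : Fpf.{u}) : Claim1.{u} := by
  intro p hp hp2 n Γ _ _ ι _ _ E _ _ h hE T hS K hK h1 h2 h3
  exact Cfsg.Agent.H308.CA.claim1 hF hp hp2 n Γ ι E h T hS K hK h1 h2 h3

/-- **FRAME-O** -/
theorem frameO (hF : Fpf.{u}) : FrameO.{u} := frameO_of (claim1' hF)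

end Cfsg.Agent.H55.CO
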