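import Cfsg.Agent.H55.CO.Ring
import Cfsg.Agent.LieClassical.OrthCore

/-!
# An orthonormal system for an isometry `z` with `z² = a z - 1` (helper55, S3852, COORD)
-/

set_option autoImplicit false
set_option linter.unusedVariables false
set_option linter.unusedSectionVars false

namespace Cfsg.Agent.H55.CO

open Cfsg.Agent.H308.CA QuadraticMap Cfsg.Agent.LieClassical.OrthCore Module

variable {F : Type} {V : Type*} [Field F] [AddCommGroup V] [Module F V] {Q : QuadraticForm F V}

section basic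

variable {z : V ≃ₗ[F] V} (hzO : z ∈ O Q) {a : F} (ha : a * a ≠ 4) (hz : ∀ v, z (z v) = a • z v - v)
include hzO ha hz

theorem polar_z (v : V) : polar Q v (z v) = a * Q v := by
  by_cases h0 : a = 0
  · have h1 := polar_map hzO v (z v)
    rw [hz, h0, zero_smul, zero_sub, polar_neg_right, polar_comm] at h1
    have h2 : (2 : F) * polar Q v (z v) = 0 := by linear_combination -h1
    have h3 : (2 : F) ≠ 0 := by
      intro h
      apply ha
      rw [h0]
      linear_combination -2 * h
    rw [h0, zero_mul]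
    exact (mul_eq_zero.1 h2).resolve_left h3
  · have h1 : Q (z (z v)) = Q v := by rw [hzO, hzO]
    have h2 := Q_add (Q := Q) (a • z v) (-v)
    rw [← sub_eq_add_neg, ← hz, h1, QuadraticMap.map_smul, hzO, QuadraticMap.map_neg, polar_neg_right,
      polar_smul_left, polar_comm] at h2
    have h3 : a * (polar Q v (z v) - a * Q v) = 0 := by
      simp only [smul_eq_mul] at h2
      linear_combination h2
    exact sub_eq_zero.1 ((mul_eq_zero.1 h3).resolve_left h0)

theorem Q_plane (x y : F) (v : V) : Q (x • v + y • z v) = (x * x + a * x * y + y * y) * Q v := by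
  rw [Q_add, QuadraticMap.map_smul, QuadraticMap.map_smul, hzO, polar_smul_left, polar_smul_right, polar_z hzO ha hz]
  simp only [smul_eq_mul]
  ring

theorem polar_z_left (v w : V) : polar Q (z v) w = a * polar Q v w - polar Q v (z w) := by
  have h1 := polar_map hzO v (z w)
  rw [hz, polar_sub_right, polar_smul_right, smul_eq_mul, polar_map hzO] at h1
  linear_combination -h1

end basic

/-- an `F[z]`-orthonormal basis -/
structure Fr (Q : QuadraticForm F V) (z : V ≃ₗ[F] V) {m : ℕ} (v : Fin m → V) : Prop where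
  q1 : ∀ i, Q (v i) = 1
  orth : ∀ i j, i ≠ j → polar Q (v i) (v j) = 0
  orth' : ∀ i j, i ≠ j → polar Q (v i) (z (v j)) = 0
  span : ∀ w, ∃ x y : Fin m → F, w = ∑ i, (x i • v i + y i • z (v i))

theorem exists_aux [Finite F] [FiniteDimensional F V] {E : Type} [CommRing E] [StarRing E] {a : F} (hG : Gd E)
    (c : Cf F E a) {z : V ≃ₗ[F] V} (hzO : z ∈ O Q) (ha : a * a ≠ 4) (hz : ∀ v, z (z v) = a • z v - v) (n : ℕ) :
    ∀ W : Submodule F V, finrank F W = n → (∀ w ∈ W, z w ∈ W) →
      (∀ w ∈ W, (∀ w' ∈ W, polar Q w w' = 0) → w = 0) →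
      ∃ (m : ℕ) (v : Fin m → V), (∀ i, v i ∈ W) ∧ (∀ i, Q (v i) = 1) ∧ (∀ i j, i ≠ j → polar Q (v i) (v j) = 0) ∧
        (∀ i j, i ≠ j → polar Q (v i) (z (v j)) = 0) ∧
        ∀ w ∈ W, ∃ x y : Fin m → F, w = ∑ i, (x i • v i + y i • z (v i)) := by
  induction n using Nat.strong_induction_on with
  | _ n ih =>
    intro W hn hW hnd
    by_cases h0 : ∀ w ∈ W, Q w = 0
    · have hbot : ∀ w ∈ W, w = 0 := by
        intro w hw
        apply hnd w hw
        intro w' hw'
        rw [polar, h0 _ (add_mem hw hw'), h0 _ hw, h0 _ hw', sub_zero, sub_zero]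
      exact ⟨0, Fin.elim0, fun i => i.elim0, fun i => i.elim0, fun i => i.elim0, fun i => i.elim0,
        fun w hw => ⟨Fin.elim0, Fin.elim0, by rw [hbot w hw, Finset.univ_eq_empty, Finset.sum_empty]⟩⟩
    push Not at h0
    obtain ⟨w0, hw0, hQ0⟩ := h0
    obtain ⟨x0, y0, hxy⟩ := c.norm_surj hG (Q w0)⁻¹
    obtain ⟨v, hv⟩ : ∃ v, v = x0 • w0 + y0 • z w0 := ⟨_, rfl⟩
    have hvW : v ∈ W := by
      rw [hv]
      exact add_mem (W.smul_mem _ hw0) (W.smul_mem _ (hW _ hw0))
    have hQv : Q v = 1 := by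
      rw [hv, Q_plane hzO ha hz, hxy, inv_mul_cancel₀ hQ0]
    have hD : (4 - a * a) ≠ 0 := fun h => ha (by linear_combination -h)
    have hDi : (4 - a * a) * (4 - a * a)⁻¹ = 1 := mul_inv_cancel₀ hD
    have p1 : polar Q v v = 2 := by rw [polar_self', hQv, mul_one]
    have p2 : polar Q v (z v) = a := by rw [polar_z hzO ha hz, hQv, mul_one]
    have p3 : polar Q (z v) v = a := by rw [polar_comm, p2]
    have p4 : polar Q (z v) (z v) = 2 := by rw [polar_map hzO, p1]
    let W' : Submodule F V := W ⊓ (LinearMap.ker (polarBilin Q v) ⊓ LinearMap.ker (polarBilin Q (z v)))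
    have hmem : ∀ u, u ∈ W' ↔ u ∈ W ∧ polar Q v u = 0 ∧ polar Q (z v) u = 0 := fun u => Iff.rfl
    have hdec : ∀ w ∈ W, ∃ α β : F, ∃ u ∈ W', w = (α • v + β • z v) + u := by
      intro w hw
      obtain ⟨s, hs⟩ : ∃ s, s = polar Q v w := ⟨_, rfl⟩
      obtain ⟨t, ht⟩ : ∃ t, t = polar Q (z v) w := ⟨_, rfl⟩
      refine ⟨(2 * s - a * t) / (4 - a * a), (2 * t - a * s) / (4 - a * a),
        w - (((2 * s - a * t) / (4 - a * a)) • v + ((2 * t - a * s) / (4 - a * a)) • z v), ?_, by abel⟩
      rw [hmem]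
      refine ⟨sub_mem hw (add_mem (W.smul_mem _ hvW) (W.smul_mem _ (hW _ hvW))), ?_, ?_⟩
      · rw [polar_sub_right, polar_add_right, polar_smul_right, polar_smul_right, p1, p2, ← hs, smul_eq_mul,
          smul_eq_mul, div_eq_mul_inv, div_eq_mul_inv]
        linear_combination (-s) * hDi
      · rw [polar_sub_right, polar_add_right, polar_smul_right, polar_smul_right, p3, p4, ← ht, smul_eq_mul,
          smul_eq_mul, div_eq_mul_inv, div_eq_mul_inv]
        linear_combination (-t) * hDi
    have hW' : ∀ u ∈ W', z u ∈ W' := by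
      intro u hu
      rw [hmem] at hu ⊢
      obtain ⟨h1, h2, h3⟩ := hu
      have h4 : polar Q (z v) (z u) = 0 := by rw [polar_map hzO, h2]
      have h5 : polar Q v (z u) = 0 := by
        have h6 := polar_z_left hzO ha hz v u
        rw [h3, h2] at h6
        linear_combination h6
      exact ⟨hW u h1, h5, h4⟩
    have hnd' : ∀ w ∈ W', (∀ w' ∈ W', polar Q w w' = 0) → w = 0 := by
      intro u hu h
      apply hnd u ((hmem u).1 hu).1
      intro w hw
      obtain ⟨α, β, u', hu', rfl⟩ := hdec w hw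
      rw [polar_add_right, polar_add_right, polar_smul_right, polar_smul_right, h u' hu', polar_comm Q u v,
        polar_comm Q u (z v), ((hmem u).1 hu).2.1, ((hmem u).1 hu).2.2]
      simp
    have hlt : finrank F W' < n := by
      rw [← hn]
      apply Submodule.finrank_lt_finrank_of_lt
      refine lt_of_le_of_ne inf_le_left fun h => ?_
      have h1 : v ∈ W' := by rw [h]; exact hvW
      rw [hmem, p1, p3] at h1
      apply ha
      linear_combination a * h1.2.2 - 2 * h1.2.1
    obtain ⟨m, v', h1, h2, h3, h4, h5⟩ := ih _ hlt W' rfl hW' hnd'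
    refine ⟨m + 1, Fin.cons v v', fun i => ?_, fun i => ?_, fun i j hij => ?_, fun i j hij => ?_, fun w hw => ?_⟩
    · refine Fin.cases ?_ (fun k => ?_) i
      · rw [Fin.cons_zero]; exact hvW
      · rw [Fin.cons_succ]; exact ((hmem _).1 (h1 k)).1
    · refine Fin.cases ?_ (fun k => ?_) i
      · rw [Fin.cons_zero]; exact hQv
      · rw [Fin.cons_succ]; exact h2 k
    · revert hij
      refine Fin.cases ?_ (fun k => ?_) i <;> refine Fin.cases ?_ (fun l => ?_) j <;> intro hij
      · exact absurd rfl hij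
      · rw [Fin.cons_zero, Fin.cons_succ]; exact ((hmem _).1 (h1 l)).2.1
      · rw [Fin.cons_zero, Fin.cons_succ, polar_comm]; exact ((hmem _).1 (h1 k)).2.1
      · rw [Fin.cons_succ, Fin.cons_succ]; exact h3 k l (fun h => hij (by rw [h]))
    · revert hij
      refine Fin.cases ?_ (fun k => ?_) i <;> refine Fin.cases ?_ (fun l => ?_) j <;> intro hij
      · exact absurd rfl hij
      · rw [Fin.cons_zero, Fin.cons_succ]; exact ((hmem _).1 (hW' _ (h1 l))).2.1
      · rw [Fin.cons_zero, Fin.cons_succ, polar_comm]; exact ((hmem _).1 (h1 k)).2.2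
      · rw [Fin.cons_succ, Fin.cons_succ]; exact h4 k l (fun h => hij (by rw [h]))
    · obtain ⟨α, β, u, hu, rfl⟩ := hdec w hw
      obtain ⟨x, y, rfl⟩ := h5 u hu
      refine ⟨Fin.cons α x, Fin.cons β y, ?_⟩
      rw [Fin.sum_univ_succ]
      simp only [Fin.cons_zero, Fin.cons_succ]

/-- **the orthonormal basis** -/
theorem exists_fr [Finite F] [FiniteDimensional F V] {E : Type} [CommRing E] [StarRing E] {a : F} (hG : Gd E)
    (c : Cf F E a) (hnd : Nondeg Q) {z : V ≃ₗ[F] V} (hzO : z ∈ O Q) (ha : a * a ≠ 4)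
    (hz : ∀ v, z (z v) = a • z v - v) : ∃ (m : ℕ) (v : Fin m → V), Fr Q z v := by
  obtain ⟨m, v, -, h1, h2, h3, h4⟩ := exists_aux hG c hzO ha hz (finrank F (⊤ : Submodule F V)) ⊤ rfl
    (fun _ _ => trivial) (fun w _ h => hnd w fun y => h y trivial)
  exact ⟨m, v, h1, h2, h3, fun w => h4 w trivial⟩

end Cfsg.Agent.H55.CO
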