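import Cfsg.Agent.H55.CO.Ta

/-!
# FRAME-O from helper308's `claim1` (helper55, S3852)
-/

set_option autoImplicit false
set_option linter.unusedVariables false
set_option linter.unusedSectionVars false

namespace Cfsg.Agent.H55.CO

open QuadraticMap Cfsg.Agent.LieClassical.OrthCore Cfsg.Agent.LieClassical.OrthTrans
  Cfsg.Agent.LieClassical.OrthSimple Cfsg.Agent.ClassicalGeometry.OrthSemi
  Cfsg.Agent.ClassicalGeometry.OrthAut1 Cfsg.Agent.H989.OutOrth.Basic
open Subgroup Pointwise Cfsg.Agent.Solvable.Carter Cfsg.Agent.H18.Carter Cfsg.Agent.H381.Car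
  Cfsg.Agent.H502.Car
open Cfsg.Agent.H308.CA (Gd TA IsP PropFix Sml mt mkSU)

universe u

/-- the statement of helper308's `claim1` -/
def Claim1 : Prop :=
  ∀ (p : ℕ), p.Prime → p ≠ 2 → ∀ (n : ℕ) (Γ : Type u) [Group Γ] [Finite Γ] (ι : Type) [Fintype ι] [DecidableEq ι]
    (E : Type) [CommRing E] [StarRing E], Gd E → CharP E p → ∀ (T : TA Γ ι E), Sml Γ → ∀ (K : Subgroup Γ), IsCarter K →
      Fintype.card ι = n → (¬ ∃ a : ℕ, n = 2 ^ a) → n ≠ 0 → PropFix T K

theorem frameO_of (hC : Claim1.{u}) : FrameO.{u} := by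
  intro F _ _ ι _ _ Q hG h2 G _ _ S _ ctx K hK e hs z r hr hr2 hzr hz1 hfx a hz ha m hm hm2 hm0
  have d : Dt e z r := ⟨hG, hr.odd_of_ne_two hr2, hzr, hs⟩
  obtain ⟨E', _, _, hGd, hchar, -, ⟨C⟩⟩ := coord hG.nondeg (E_le_O z.2) ha hz (m := m) (by
    rw [Module.finrank_fintype_fun_eq_card, hm])
  have hm3 : 3 ≤ m := by
    by_contra hlt
    apply hm2
    have h3 : m = 1 ∨ m = 2 := by omega
    rcases h3 with h3 | h3
    · exact ⟨0, by rw [h3]; rfl⟩
    · exact ⟨1, by rw [h3]; rfl⟩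
  obtain ⟨p, hp⟩ := CharP.exists F
  have hpp : p.Prime := CharP.char_is_prime F p
  have hp2 : p ≠ 2 := by
    rintro rfl
    exact h2 (by exact_mod_cast CharP.cast_eq_zero F 2)
  have hpE : CharP E' p := hchar p hp
  have h2E : (2 : E') ≠ 0 := by
    intro h
    have h3 : ((2 : ℕ) : E') = 0 := by exact_mod_cast h
    rw [CharP.cast_eq_zero_iff E' p] at h3
    exact hp2 ((Nat.prime_dvd_prime_iff_eq hpp Nat.prime_two).1 h3)
  have h2u : IsUnit (2 : E') := hGd.isUnit_of_sym (by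
    have h3 : star ((2 : ℕ) : E') = ((2 : ℕ) : E') := star_natCast 2
    exact_mod_cast h3) h2E
  have hperf := su_perfect hGd h2u hm3
  have hle : K ≤ Cz e z := hfx.le_centralizer hs
  obtain ⟨e0, hP, h0, h1, hfix⟩ := hC p hpp hp2 m (Cz e z) (Fin m) E' hGd hpE (ta d C hperf)
    (Cfsg.Agent.H308.CA.Sml.subgroup ctx.min _) (K.subgroupOf (Cz e z)) (hK.subgroupOf hle) (Fintype.card_fin m) hm2 hm0
  obtain ⟨A, hA⟩ : ∃ A : Matrix (Fin m) (Fin m) E', A = e0 + e0 - 1 := ⟨_, rfl⟩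
  have hAA : A * A = 1 := by
    rw [hA, sub_mul, mul_sub, add_mul, mul_add, hP.idem, one_mul, mul_one]
    abel
  have hsA : star A = A := by rw [hA, star_sub, star_add, hP.sym, star_one]
  have hinv : Function.Involutive (C.Φ A) := fun v => by
    have h3 : (C.Φ A * C.Φ A) v = v := by rw [← map_mul, hAA, map_one]; rfl
    exact h3
  have hAv : ∀ v, C.Φ A v = C.Φ e0 v + C.Φ e0 v - v := by
    intro v
    rw [hA, map_sub, map_add, map_one]
    rfl
  have hidem : ∀ v, C.Φ e0 (C.Φ e0 v) = C.Φ e0 v := by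
    intro v
    have h3 : (C.Φ e0 * C.Φ e0) v = C.Φ e0 v := by rw [← map_mul, hP.idem]
    exact h3
  refine ⟨LinearEquiv.ofInvolutive (C.Φ A) hinv, ?_, ?_, ?_, ?_, ?_, ?_⟩
  · intro v
    exact C.isom A (by rw [hsA, hAA]) v
  · ext v : 1
    exact hinv v
  · obtain ⟨w, hw⟩ : ∃ w, C.Φ e0 w ≠ 0 := by
      by_contra hcon
      push Not at hcon
      apply h0
      apply C.inj
      rw [map_zero]
      exact LinearMap.ext hcon
    refine ⟨C.Φ e0 w, hw, ?_⟩
    change C.Φ A (C.Φ e0 w) = _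
    rw [hAv, hidem]
    abel
  · obtain ⟨w, hw⟩ : ∃ w, C.Φ e0 w ≠ w := by
      by_contra hcon
      push Not at hcon
      apply h1
      apply C.inj
      rw [map_one]
      exact LinearMap.ext hcon
    refine ⟨w - C.Φ e0 w, sub_ne_zero.2 hw.symm, ?_⟩
    change C.Φ A (w - C.Φ e0 w) = _
    rw [hAv, map_sub, hidem]
    abel
  · intro v
    exact (C.range (C.Φ A)).2 ⟨_, rfl⟩ v
  · intro k hk M hM
    have h3 := hfix ⟨k, hle hk⟩ (mem_subgroupOf.2 hk)
    have h4 := rh_spec d C ⟨k, hle hk⟩ hM e0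
    change C.Φ ((ta d C hperf).ρ ⟨k, hle hk⟩ e0) = _ at h4
    rw [h3] at h4
    have h5 : cE M (C.Φ A) = C.Φ A := by
      rw [hA, map_sub, map_add, map_one, map_sub, map_add, map_one, ← h4]
    ext v : 1
    exact LinearMap.congr_fun h5 v

end Cfsg.Agent.H55.CO
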