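import Cfsg.Agent.H308.CA.Stmts
import Cfsg.Agent.H466.CA.BridgeUni
import Cfsg.Agent.H683.CA.ExMat
import Cfsg.Agent.H908.CarterPC
import Cfsg.Agent.LieClassical.HermPerfect
import Cfsg.Agent.LieClassical.SLGen

/-!
# `SU` is perfect (helper55, S3852)
-/

set_option autoImplicit false

namespace Cfsg.Agent.H55.CO

open Cfsg.Agent.H308.CA Matrix

theorem perfect_of_equiv {G H : Type*} [Group G] [Group H] (f : G ≃* H) (h : commutator H = ⊤) : commutator G = ⊤ := by
  have h1 : (commutator G).map f.toMonoidHom = ⊤ := by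
    rw [_root_.commutator_def, Subgroup.map_commutator, Subgroup.map_top_of_surjective _ f.surjective,
      ← _root_.commutator_def, h]
  rw [eq_top_iff]
  intro x _
  have h2 : f x ∈ (commutator G).map f.toMonoidHom := by rw [h1]; trivial
  obtain ⟨y, hy, hxy⟩ := h2
  rwa [← f.injective hxy]

/-- `SU_m(E)`, `m ≥ 3`, odd characteristic, is perfect -/
theorem su_perfect {E : Type} [CommRing E] [StarRing E] (h : Gd E) (h2 : IsUnit (2 : E)) {m : ℕ} (hm : 3 ≤ m) :
    commutator (H308.CA.SU (Fin m) E) = ⊤ := by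
  cases h with
  | lin F i _ =>
    have h3 : 3 ≤ Fintype.card (Fin m) := by rwa [Fintype.card_fin]
    exact perfect_of_equiv Cfsg.Agent.H683.CA.toSL (LieClassical.SLGen.commutator_eq_top (F := F) h3)
  | uni _ i s _ hs =>
    have : Fintype E := Fintype.ofFinite E
    obtain ⟨q, hq, hst⟩ := Cfsg.Agent.H908.CarterPC.exists_q hs
    refine perfect_of_equiv (Cfsg.Agent.H466.CA.BridgeUni.kap hst)
      (Cfsg.Agent.LieClassical.HermPerfect.commutator_SU_eq_top hq hm ?_)
    rintro ⟨-, rfl⟩
    have h3 : (2 : E) ^ 2 = 0 := by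
      have h4 : ((Fintype.card E : ℕ) : E) = 0 := Nat.cast_card_eq_zero E
      rw [hq, Nat.cast_pow] at h4
      exact_mod_cast h4
    exact h2.ne_zero (pow_eq_zero_iff (two_ne_zero) |>.1 h3)

end Cfsg.Agent.H55.CO
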