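import Cfsg.Agent.H308.CA.Coef

/-!
# The coefficient ring `F[ω]`, `ω² = a ω - 1` (helper55, S3852, COORD)

`Cf F E a`: the star ring `E` is `F[ω]` with `ω² = a ω - 1`, `star ω = a - ω`.
`exists_cf`: for a finite field `F` and `a² ≠ 4` there is such a ring `E` with `Gd E`.
-/

set_option autoImplicit false
set_option linter.unusedVariables false

namespace Cfsg.Agent.H55.CO

open Cfsg.Agent.H308.CA

/-- `E = F[ω]`, `ω² = a ω - 1`, `star ω = a - ω` -/
structure Cf (F : Type) [Field F] (E : Type) [CommRing E] [StarRing E] (a : F) where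
  /-- the embedding -/
  i : F →+* E
  /-- the generator -/
  om : E
  star_i : ∀ x, star (i x) = i x
  om_sq : om * om = i a * om - 1
  star_om : star om = i a - om
  gen : ∀ c : E, ∃ x y : F, c = i x + i y * om
  uniq : ∀ x y : F, i x + i y * om = 0 → x = 0 ∧ y = 0

namespace Cf

variable {F : Type} [Field F] {E : Type} [CommRing E] [StarRing E] {a : F} (c : Cf F E a)

theorem inj : Function.Injective c.i := by
  rw [injective_iff_map_eq_zero]
  intro x hx
  exact (c.uniq x 0 (by rw [hx, map_zero, zero_mul, add_zero])).1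

theorem ext2 {x y x' y' : F} (h : c.i x + c.i y * c.om = c.i x' + c.i y' * c.om) : x = x' ∧ y = y' := by
  have h1 := c.uniq (x - x') (y - y') (by rw [map_sub, map_sub]; linear_combination h)
  exact ⟨sub_eq_zero.1 h1.1, sub_eq_zero.1 h1.2⟩

/-- the two coordinates -/
noncomputable def re (e : E) : F := (c.gen e).choose

noncomputable def im (e : E) : F := (c.gen e).choose_spec.choose

theorem eq (e : E) : e = c.i (c.re e) + c.i (c.im e) * c.om := (c.gen e).choose_spec.choose_spec

theorem re_mk (x y : F) : c.re (c.i x + c.i y * c.om) = x := (c.ext2 (c.eq (c.i x + c.i y * c.om))).1.symm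

theorem im_mk (x y : F) : c.im (c.i x + c.i y * c.om) = y := (c.ext2 (c.eq (c.i x + c.i y * c.om))).2.symm

theorem re_eq {e : E} {x y : F} (h : e = c.i x + c.i y * c.om) : c.re e = x := by rw [h, c.re_mk]

theorem im_eq {e : E} {x y : F} (h : e = c.i x + c.i y * c.om) : c.im e = y := by rw [h, c.im_mk]

theorem re_add (e f : E) : c.re (e + f) = c.re e + c.re f := by
  apply c.re_eq (y := c.im e + c.im f)
  rw [map_add, map_add]
  linear_combination c.eq e + c.eq f

theorem im_add (e f : E) : c.im (e + f) = c.im e + c.im f := by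
  apply c.im_eq (x := c.re e + c.re f)
  rw [map_add, map_add]
  linear_combination c.eq e + c.eq f

theorem re_smul (t : F) (e : E) : c.re (c.i t * e) = t * c.re e := by
  apply c.re_eq (y := t * c.im e)
  rw [map_mul, map_mul]
  linear_combination c.i t * c.eq e

theorem im_smul (t : F) (e : E) : c.im (c.i t * e) = t * c.im e := by
  apply c.im_eq (x := t * c.re e)
  rw [map_mul, map_mul]
  linear_combination c.i t * c.eq e

theorem re_om (e : E) : c.re (c.om * e) = - c.im e := by
  apply c.re_eq (y := c.re e + a * c.im e)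
  rw [map_neg, map_add, map_mul]
  linear_combination c.om * c.eq e + c.i (c.im e) * c.om_sq

theorem im_om (e : E) : c.im (c.om * e) = c.re e + a * c.im e := by
  apply c.im_eq (x := - c.im e)
  rw [map_neg, map_add, map_mul]
  linear_combination c.om * c.eq e + c.i (c.im e) * c.om_sq

theorem star_mk (x y : F) : star (c.i x + c.i y * c.om) = c.i (x + y * a) + c.i (-y) * c.om := by
  rw [star_add, star_mul, c.star_i, c.star_i, c.star_om, map_add, map_mul, map_neg]
  ring

theorem norm_mk (x y : F) : star (c.i x + c.i y * c.om) * (c.i x + c.i y * c.om) = c.i (x * x + a * x * y + y * y) := by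
  rw [c.star_mk]
  simp only [map_add, map_mul, map_neg]
  linear_combination (- c.i y * c.i y) * c.om_sq

include c in
/-- the norm form is universal -/
theorem norm_surj (h : Gd E) (t : F) : ∃ x y : F, x * x + a * x * y + y * y = t := by
  by_cases ht : t = 0
  · exact ⟨0, 0, by rw [ht]; ring⟩
  · obtain ⟨e, he⟩ := h.norm (c.star_i t) (fun h1 => ht (by rwa [map_eq_zero_iff _ c.inj] at h1))
    rw [c.eq e, c.norm_mk] at he
    exact ⟨_, _, c.inj he⟩

include c in
theorem charP (p : ℕ) [CharP F p] : CharP E p := charP_of_injective_ringHom c.inj p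

include c in
theorem card_eq [Finite F] : Nat.card E = Nat.card F ^ 2 := by
  rw [pow_two, ← Nat.card_prod]
  refine (Nat.card_congr (Equiv.ofBijective (fun q : F × F => c.i q.1 + c.i q.2 * c.om) ⟨?_, ?_⟩)).symm
  · rintro ⟨x, y⟩ ⟨x', y'⟩ h
    have h1 := c.ext2 h
    exact Prod.ext h1.1 h1.2
  · intro e
    exact ⟨(c.re e, c.im e), (c.eq e).symm⟩

end Cf

/-- the split case -/
theorem exists_cf_split (F : Type) [Field F] (a r : F) (ha : a * a ≠ 4) (hr : r ^ 2 = -1 + a * r) :
    Nonempty (Cf F (Ex F) a) := by
  have hd : 2 * r - a ≠ 0 := by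
    intro h
    apply ha
    linear_combination (2 * r - a) * h - 4 * hr
  let i : F →+* Ex F :=
    { toFun := fun x => ((x, x) : F × F)
      map_one' := rfl
      map_zero' := rfl
      map_mul' := fun x y => rfl
      map_add' := fun x y => rfl }
  refine ⟨⟨i, ((r, a - r) : F × F), fun x => rfl, ?_, ?_, ?_, ?_⟩⟩
  · refine Prod.ext ?_ ?_
    · change r * r = a * r - 1
      linear_combination hr
    · change (a - r) * (a - r) = a * (a - r) - 1
      linear_combination hr
  · refine Prod.ext ?_ ?_
    · change a - r = a - r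
      rfl
    · change r = a - (a - r)
      ring
  · rintro ⟨x, y⟩
    refine ⟨x - (x - y) / (2 * r - a) * r, (x - y) / (2 * r - a), Prod.ext ?_ ?_⟩
    · change x = x - (x - y) / (2 * r - a) * r + (x - y) / (2 * r - a) * r
      ring
    · change y = x - (x - y) / (2 * r - a) * r + (x - y) / (2 * r - a) * (a - r)
      have h1 : (x - y) / (2 * r - a) * (2 * r - a) = x - y := div_mul_cancel₀ _ hd
      linear_combination h1
  · intro x y h
    have h1 : x + y * r = 0 := congrArg Prod.fst h
    have h2 : x + y * (a - r) = 0 := congrArg Prod.snd h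
    have h3 : y * (2 * r - a) = 0 := by linear_combination h1 - h2
    have h4 : y = 0 := (mul_eq_zero.1 h3).resolve_right hd
    refine ⟨?_, h4⟩
    rw [h4, zero_mul, add_zero] at h1
    exact h1

/-- the field case -/
theorem exists_cf_field (F : Type) [Field F] [Finite F] (a : F) (ha : a * a ≠ 4) (hr : ∀ r : F, r ^ 2 ≠ -1 + a * r) :
    ∃ (E : Type) (i : Field E) (s : StarRing E), Gd E ∧ Nonempty (Cf F E a) := by
  have : Fact (∀ r : F, r ^ 2 ≠ -1 + a * r) := ⟨hr⟩
  have : Finite (QuadraticAlgebra F (-1) a) := Finite.of_equiv _ (QuadraticAlgebra.equivProd (-1) a).symm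
  have hs : ∃ e : QuadraticAlgebra F (-1) a, star e ≠ e := by
    refine ⟨⟨0, 1⟩, fun h => ?_⟩
    have h1 := congrArg QuadraticAlgebra.re h
    have h2 := congrArg QuadraticAlgebra.im h
    rw [QuadraticAlgebra.star_mk] at h1 h2
    have h1' : (0 : F) + a * 1 = 0 := h1
    have h2' : -(1 : F) = 1 := h2
    apply ha
    have h3 : a = 0 := by linear_combination h1'
    have h4 : (2 : F) = 0 := by linear_combination -h2'
    rw [h3]
    linear_combination (-2) * h4
  refine ⟨QuadraticAlgebra F (-1) a, inferInstance, inferInstance, Good.uni _ _ _ inferInstance hs, ⟨?_⟩⟩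
  refine
    { i := algebraMap F (QuadraticAlgebra F (-1) a)
      om := ⟨0, 1⟩
      star_i := ?_
      om_sq := ?_
      star_om := ?_
      gen := ?_
      uniq := ?_ }
  · intro x
    ext <;> simp
  · ext
    · simp
      rfl
    · simp
      exact (sub_zero a).symm
  · ext <;> simp
  · intro e
    refine ⟨e.re, e.im, ?_⟩
    ext <;> simp
  · intro x y h
    have h1 := congrArg QuadraticAlgebra.re h
    have h2 := congrArg QuadraticAlgebra.im h
    simp at h1 h2
    exact ⟨h1, h2⟩

/-- **the coefficient ring** -/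
theorem exists_cf (F : Type) [Field F] [Finite F] (a : F) (ha : a * a ≠ 4) :
    ∃ (E : Type) (_ : CommRing E) (_ : StarRing E), Gd E ∧ Nonempty (Cf F E a) := by
  by_cases hr : ∃ r : F, r ^ 2 = -1 + a * r
  · obtain ⟨r, hr⟩ := hr
    exact ⟨Ex F, inferInstance, inferInstance, Good.lin F inferInstance inferInstance, exists_cf_split F a r ha hr⟩
  · push Not at hr
    obtain ⟨E, i, s, h1, h2⟩ := exists_cf_field F a ha hr
    exact ⟨E, inferInstance, s, h1, h2⟩

end Cfsg.Agent.H55.CO
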