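import Cfsg.Agent.H55.CO.Coord
import Cfsg.Agent.H55.CO.Perf
import Cfsg.Agent.H502.Car.Stmts
import Cfsg.Agent.H308.CA.Step

/-!
# TAO: the centralizer of `z` acts on `Matrix (Fin m) (Fin m) E` (helper55, S3852)
-/

set_option autoImplicit false
set_option linter.unusedVariables false
set_option linter.unusedSectionVars false

namespace Cfsg.Agent.H55.CO

open QuadraticMap Cfsg.Agent.LieClassical.OrthCore Cfsg.Agent.LieClassical.OrthTrans
  Cfsg.Agent.LieClassical.OrthSimple Cfsg.Agent.ClassicalGeometry.OrthSemi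
  Cfsg.Agent.ClassicalGeometry.OrthAut1 Cfsg.Agent.H989.OutOrth.Basic
open Subgroup Pointwise Cfsg.Agent.Solvable.Carter Cfsg.Agent.H18.Carter Cfsg.Agent.H381.Car
  Cfsg.Agent.H502.Car
open Cfsg.Agent.H308.CA (Gd TA IsP PropFix Sml mt mkSU)

universe u

section cE

variable {F V : Type*} [Field F] [AddCommGroup V] [Module F V] {Q : QuadraticForm F V}

/-- conjugation of endomorphisms by a semisimilitude -/
def cE (M : Gam Q) : Module.End F V →+* Module.End F V where
  toFun T :=
    { toFun := fun v => M.1 (T (M.1⁻¹ v))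
      map_add' := fun u v => by rw [add_of_mem ((Gam Q).inv_mem M.2), map_add, add_of_mem M.2]
      map_smul' := fun a v => by
        obtain ⟨σ, c, hM⟩ := M.2
        rw [hM.inv.smul, map_smul, hM.smul, RingEquiv.apply_symm_apply]
        rfl }
  map_one' := by
    ext v
    change M.1 (M.1⁻¹ v) = v
    rw [apply_inv]
  map_mul' S T := by
    ext v
    change M.1 (S (T (M.1⁻¹ v))) = M.1 (S (M.1⁻¹ (M.1 (T (M.1⁻¹ v)))))
    rw [inv_apply]
  map_zero' := by
    ext v
    change M.1 0 = 0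
    obtain ⟨σ, c, hM⟩ := M.2
    exact hM.map_zero
  map_add' S T := by
    ext v
    change M.1 (S (M.1⁻¹ v) + T (M.1⁻¹ v)) = M.1 (S (M.1⁻¹ v)) + M.1 (T (M.1⁻¹ v))
    rw [add_of_mem M.2]

theorem cE_apply (M : Gam Q) (T : Module.End F V) (v : V) : cE M T v = M.1 (T (M.1⁻¹ v)) := rfl

theorem cE_one_left (T : Module.End F V) : cE (1 : Gam Q) T = T := rfl

theorem cE_mul_left (M N : Gam Q) (T : Module.End F V) : cE (M * N) T = cE M (cE N T) := by
  ext v
  change M.1 (N.1 (T ((M.1 * N.1)⁻¹ v))) = M.1 (N.1 (T (N.1⁻¹ (M.1⁻¹ v))))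
  rw [mul_inv_rev]
  rfl

theorem cE_scal (a : Fˣ) (T : Module.End F V) : cE (scal Q a) T = T := by
  ext v
  have h1 : (scal Q a).1 ((scal Q a).1⁻¹ v) = v := apply_inv _ _
  rw [scal_apply] at h1
  rw [cE_apply, scal_apply, ← map_smul, h1]

theorem cE_polar (hnd : Nondeg Q) (M : Gam Q) {S T : Module.End F V} (h : ∀ v w, polar Q (S v) w = polar Q v (T w))
    (v w : V) : polar Q (cE M S v) w = polar Q v (cE M T w) := by
  obtain ⟨σ, c, hM⟩ := M.2
  have h1 : w = M.1 (M.1⁻¹ w) := (apply_inv _ _).symm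
  have h2 : v = M.1 (M.1⁻¹ v) := (apply_inv _ _).symm
  rw [cE_apply, cE_apply]
  conv_lhs => rw [h1]
  conv_rhs => rw [h2]
  rw [hM.polar, hM.polar, h]

end cE

section main

variable {F : Type} [Field F] [Finite F] {V : Type} [AddCommGroup V] [Module F V] {Q : QuadraticForm F V}
variable {E' : Type} [CommRing E'] [StarRing E'] {m : ℕ}

section lin

variable {z : V ≃ₗ[F] V} (C : Cmt Q z m E')

/-- the isometry of an element of `SU` -/
def jO : H308.CA.SU (Fin m) E' →* (V ≃ₗ[F] V) where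
  toFun u :=
    { C.Φ (mt u) with
      invFun := C.Φ (star (mt u))
      left_inv := fun v => by
        change (C.Φ (star (mt u)) * C.Φ (mt u)) v = v
        rw [← map_mul, H308.CA.star_mt_mul, map_one]
        rfl
      right_inv := fun v => by
        change (C.Φ (mt u) * C.Φ (star (mt u))) v = v
        rw [← map_mul, H308.CA.mt_mul_star, map_one]
        rfl }
  map_one' := by
    ext v
    change C.Φ (mt 1) v = v
    rw [map_one, map_one]
    rfl
  map_mul' u w := by
    ext v
    change C.Φ (mt (u * w)) v = C.Φ (mt u) (C.Φ (mt w) v)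
    rw [map_mul, map_mul]
    rfl

theorem jO_apply (u : H308.CA.SU (Fin m) E') (v : V) : jO C u v = C.Φ (mt u) v := rfl

theorem jO_inv_apply (u : H308.CA.SU (Fin m) E') (v : V) : (jO C u)⁻¹ v = C.Φ (star (mt u)) v := rfl

theorem jO_mem_O (u : H308.CA.SU (Fin m) E') : jO C u ∈ O Q := fun v => C.isom _ (H308.CA.star_mt_mul u) v

theorem jO_mem_E (hG : Good Q) (hp : commutator (H308.CA.SU (Fin m) E') = ⊤) (u : H308.CA.SU (Fin m) E') :
    jO C u ∈ E Q := by
  have h1 : (⊤ : Subgroup (H308.CA.SU (Fin m) E')).map (jO C) ≤ O Q := by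
    rintro _ ⟨w, -, rfl⟩
    exact jO_mem_O C w
  have h2 : (⊤ : Subgroup (H308.CA.SU (Fin m) E')).map (jO C) ≤ E Q := by
    rw [← hp, _root_.commutator_def, Subgroup.map_commutator, ← hG.commutator_eq_E]
    exact Subgroup.commutator_mono h1 h1
  exact h2 ⟨u, trivial, rfl⟩

theorem jO_comm (u : H308.CA.SU (Fin m) E') (v : V) : jO C u (z v) = z (jO C u v) :=
  (C.range (C.Φ (mt u))).2 ⟨_, rfl⟩ v

/-- `jO` as a homomorphism to `E Q` -/
def jE (hG : Good Q) (hp : commutator (H308.CA.SU (Fin m) E') = ⊤) : H308.CA.SU (Fin m) E' →* ↥(E Q) :=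
  (jO C).codRestrict (E Q) (jO_mem_E C hG hp)

theorem coe_jE (hG : Good Q) (hp : commutator (H308.CA.SU (Fin m) E') = ⊤) (u : H308.CA.SU (Fin m) E') :
    (jE C hG hp u : V ≃ₗ[F] V) = jO C u := rfl

/-- the inverse of `Φ` -/
noncomputable def pr (T : Module.End F V) : Matrix (Fin m) (Fin m) E' := Function.invFun C.Φ T

theorem Φ_pr {T : Module.End F V} (h : ∀ v, T (z v) = z (T v)) : C.Φ (pr C T) = T :=
  Function.invFun_eq ((C.range T).1 h)

theorem pr_Φ (A : Matrix (Fin m) (Fin m) E') : pr C (C.Φ A) = A := C.inj (Φ_pr C ((C.range _).2 ⟨A, rfl⟩))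

theorem cE_comm {M : Gam Q} (hM : ∀ v, M.1 (z v) = z (M.1 v)) (A : Matrix (Fin m) (Fin m) E') :
    ∀ v, cE M (C.Φ A) (z v) = z (cE M (C.Φ A) v) := by
  intro v
  have h1 : M.1⁻¹ (z v) = z (M.1⁻¹ v) := by
    apply M.1.injective
    rw [apply_inv, hM, apply_inv]
  rw [cE_apply, cE_apply, h1, (C.range (C.Φ A)).2 ⟨_, rfl⟩, hM]

theorem Φ_pr_cE {M : Gam Q} (hM : ∀ v, M.1 (z v) = z (M.1 v)) (A : Matrix (Fin m) (Fin m) E') :
    C.Φ (pr C (cE M (C.Φ A))) = cE M (C.Φ A) := Φ_pr C (cE_comm C hM A)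

end lin

section grp

variable {G : Type u} [Group G] {S : Subgroup G} [S.Normal]

/-- the data needed for the `TA` structure -/
structure Dt (e : S ≃* P Q) (z : ↥(E Q)) (r : ℕ) : Prop where
  good : Good Q
  odd : Odd r
  pow : z ^ r = 1
  lift : ∀ g : G, ∃ M : Gam Q, Lf e g M

variable {e : S ≃* P Q} {z : ↥(E Q)} {r : ℕ} (d : Dt e z r) (C : Cmt Q z.1 m E')

/-- the centralizer of `z` -/
abbrev Cz (e : S ≃* P Q) (z : ↥(E Q)) : Subgroup G := centralizer ({el e z} : Set G)

include d in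
theorem Dt.comm (g : Cz e z) {M : Gam Q} (hM : Lf e g.1 M) (v : V) : M.1 (z.1 v) = z.1 (M.1 v) := by
  have h1 : (g : G) * el e z * (g : G)⁻¹ = el e z := by
    rw [mul_inv_eq_iff_eq_mul]
    exact mem_centralizer_singleton_iff.1 g.2
  have h2 := hM.fix d.good d.odd d.pow h1
  have h3 : conjLin M z.1 = z.1 := congrArg Subtype.val h2
  rw [← conjLin_apply', h3]

/-- a lift -/
noncomputable def lft (g : Cz e z) : Gam Q := (d.lift g.1).choose

theorem lft_spec (g : Cz e z) : Lf e g.1 (lft d g) := (d.lift g.1).choose_spec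

theorem cE_eq {g : G} {M M' : Gam Q} (h : Lf e g M) (h' : Lf e g M') (hG : Good Q) (T : Module.End F V) :
    cE M T = cE M' T := by
  obtain ⟨a, rfl⟩ := h.eq_one_of_scal hG h'
  rw [cE_mul_left, cE_scal]

/-- the action on matrices -/
noncomputable def rf0 (g : Cz e z) (A : Matrix (Fin m) (Fin m) E') : Matrix (Fin m) (Fin m) E' :=
  pr C (cE (lft d g) (C.Φ A))

theorem rf0_spec (g : Cz e z) {M : Gam Q} (hM : Lf e g.1 M) (A : Matrix (Fin m) (Fin m) E') :
    C.Φ (rf0 d C g A) = cE M (C.Φ A) := by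
  rw [rf0, Φ_pr_cE C (d.comm g (lft_spec d g)), cE_eq (lft_spec d g) hM d.good]

/-- the action -/
noncomputable def rh : Cz e z →* RingAut (Matrix (Fin m) (Fin m) E') := by
  have hmul : ∀ (g h : Cz e z) A, rf0 d C (g * h) A = rf0 d C g (rf0 d C h A) := by
    intro g h A
    apply C.inj
    rw [rf0_spec d C (g * h) ((lft_spec d g).mul (lft_spec d h)), rf0_spec d C g (lft_spec d g),
      rf0_spec d C h (lft_spec d h), cE_mul_left]
  have hone : ∀ A, rf0 d C 1 A = A := by
    intro A
    apply C.inj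
    have h1 : Lf e ((1 : Cz e z) : G) 1 := by
      change Psi Q 1 = act e 1
      rw [map_one, map_one]
    rw [rf0_spec d C 1 h1, cE_one_left]
  exact MonoidHom.mk' (fun g =>
    { toFun := rf0 d C g
      invFun := rf0 d C g⁻¹
      left_inv := fun A => by rw [← hmul, inv_mul_cancel, hone]
      right_inv := fun A => by rw [← hmul, mul_inv_cancel, hone]
      map_mul' := fun A B => by
        apply C.inj
        rw [map_mul, rf0_spec d C g (lft_spec d g), rf0_spec d C g (lft_spec d g), rf0_spec d C g (lft_spec d g),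
          map_mul, map_mul]
      map_add' := fun A B => by
        apply C.inj
        rw [map_add, rf0_spec d C g (lft_spec d g), rf0_spec d C g (lft_spec d g), rf0_spec d C g (lft_spec d g),
          map_add, map_add] }) (fun g h => by
      ext A : 1
      exact hmul g h A)

theorem rh_spec (g : Cz e z) {M : Gam Q} (hM : Lf e g.1 M) (A : Matrix (Fin m) (Fin m) E') :
    C.Φ (rh d C g A) = cE M (C.Φ A) := rf0_spec d C g hM A

variable (hp : commutator (H308.CA.SU (Fin m) E') = ⊤)

/-- the inner elements -/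
noncomputable def jj : H308.CA.SU (Fin m) E' →* Cz e z :=
  ((el e).comp (jE C d.good hp)).codRestrict (Cz e z) (fun u => by
    rw [mem_centralizer_singleton_iff]
    change el e (jE C d.good hp u) * el e z = el e z * el e (jE C d.good hp u)
    rw [← map_mul, ← map_mul]
    congr 1
    apply Subtype.ext
    ext v
    exact jO_comm C u v)

theorem coe_jj (u : H308.CA.SU (Fin m) E') : (jj d C hp u : G) = el e (jE C d.good hp u) := rfl

/-- **TAO** -/
noncomputable def ta : TA (Cz e z) (Fin m) E' where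
  ρ := rh d C
  st g a := by
    apply C.inj
    rw [rh_spec d C g (lft_spec d g)]
    have h1 : ∀ v w, polar Q v (cE (lft d g) (C.Φ (star a)) w) = polar Q v (C.Φ (star (rh d C g a)) w) := by
      intro v w
      rw [← cE_polar d.good.nondeg (lft d g) (C.adj a), ← C.adj, rh_spec d C g (lft_spec d g)]
    ext w
    rw [← sub_eq_zero]
    apply d.good.nondeg
    intro y
    rw [polar_comm, polar_sub_right, h1, sub_self]
  j := jj d C hp
  ρ_j u a := by
    apply C.inj
    have h1 : Lf e (jj d C hp u : G) (ofO Q ⟨(jE C d.good hp u : V ≃ₗ[F] V), E_le_O (jE C d.good hp u).2⟩) :=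
      lf_el e _
    rw [rh_spec d C _ h1, map_mul, map_mul]
    rfl
  conj_j g u v h := by
    apply Subtype.ext
    change (g : G) * el e (jE C d.good hp u) * (g : G)⁻¹ = el e (jE C d.good hp v)
    rw [(lft_spec d g).conj]
    congr 1
    apply Subtype.ext
    ext x
    rw [coe_conjE, conjLin_apply]
    change (lft d g).1 (C.Φ (mt u) ((lft d g).1⁻¹ x)) = C.Φ (mt v) x
    rw [h, rh_spec d C g (lft_spec d g)]
    rfl

end grp

end main

end Cfsg.Agent.H55.CO
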