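import Cfsg.Agent.H55.CO.TsAct
import Cfsg.Agent.H55.CA.OddIndex
import Cfsg.Agent.H308.CA.Main3

/-!
# FRAME-TS (helper55, S3852)
-/

set_option autoImplicit false
set_option linter.unusedVariables false
set_option linter.unusedSectionVars false

namespace Cfsg.Agent.H55.CO.TS

open QuadraticMap Cfsg.Agent.LieClassical.OrthCore Cfsg.Agent.LieClassical.OrthTrans
  Cfsg.Agent.LieClassical.OrthSimple Cfsg.Agent.ClassicalGeometry.OrthSemi
  Cfsg.Agent.ClassicalGeometry.OrthAut1 Cfsg.Agent.H989.OutOrth.Basic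
open Subgroup Pointwise Cfsg.Agent.Solvable.Carter Cfsg.Agent.H18.Carter Cfsg.Agent.H381.Car
  Cfsg.Agent.H502.Car Matrix
open Cfsg.Agent.H308.CA (Gd TA IsP PropFix Sml mt mkSU Ex)
open Cfsg.Agent.H683.CA (p1 p2 mk2 toSL mat_ext mk2_mul mk2_add)

universe u

/-- conjugation by unitary elements -/
def cu {ι : Type} [Fintype ι] [DecidableEq ι] {E : Type} [CommRing E] [StarRing E] :
    H308.CA.SU ι E →* RingAut (Matrix ι ι E) where
  toFun u :=
    { toFun := fun a => mt u * a * star (mt u)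
      invFun := fun a => star (mt u) * a * mt u
      left_inv := fun a => by
        calc star (mt u) * (mt u * a * star (mt u)) * mt u
            = (star (mt u) * mt u) * a * (star (mt u) * mt u) := by simp only [mul_assoc]
          _ = a := by rw [H308.CA.star_mt_mul, one_mul, mul_one]
      right_inv := fun a => by
        calc mt u * (star (mt u) * a * mt u) * star (mt u)
            = (mt u * star (mt u)) * a * (mt u * star (mt u)) := by simp only [mul_assoc]
          _ = a := by rw [H308.CA.mt_mul_star, one_mul, mul_one]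
      map_mul' := fun a b => by
        calc mt u * (a * b) * star (mt u) = mt u * a * 1 * b * star (mt u) := by simp only [mul_assoc, one_mul]
          _ = _ := by rw [← H308.CA.star_mt_mul u]; simp only [mul_assoc]
      map_add' := fun a b => by rw [mul_add, add_mul] }
  map_one' := by
    ext a : 1
    change mt 1 * a * star (mt 1) = a
    rw [map_one, star_one, one_mul, mul_one]
  map_mul' u v := by
    ext a : 1
    change mt (u * v) * a * star (mt (u * v)) = mt u * (mt v * a * star (mt v)) * star (mt u)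
    rw [map_mul, star_mul]
    simp only [mul_assoc]

theorem cu_apply {ι : Type} [Fintype ι] [DecidableEq ι] {E : Type} [CommRing E] [StarRing E] (u : H308.CA.SU ι E)
    (a : Matrix ι ι E) : cu u a = mt u * a * star (mt u) := rfl

section grp

variable {F : Type} [Field F] [Finite F] {V : Type} [AddCommGroup V] [Module F V] {Q : QuadraticForm F V}
  {R : Submodule F V} {G : Type u} [Group G] {S : Subgroup G} [S.Normal] {e : S ≃* P Q}

/-- the stabilizer of `R` -/
def St (e : S ≃* P Q) (R : Submodule F V) : Subgroup G where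
  carrier := {g | ∃ M : Gam Q, Lf e g M ∧ PR R M}
  mul_mem' := by
    rintro g h ⟨M, hM, hR⟩ ⟨N, hN, hR'⟩
    exact ⟨M * N, hM.mul hN, hR.mul hR'⟩
  one_mem' := ⟨1, by change Psi Q 1 = act e 1; rw [map_one, map_one], PR.one⟩
  inv_mem' := by
    rintro g ⟨M, hM, hR⟩
    exact ⟨M⁻¹, hM.inv, hR.inv⟩

/-- a lift -/
noncomputable def sM (g : St e R) : Gam Q := g.2.choose

theorem sM_lf (g : St e R) : Lf e g.1 (sM g) := g.2.choose_spec.1

theorem sM_pr (g : St e R) : PR R (sM g) := g.2.choose_spec.2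

theorem PR.of_lf (hG : Good Q) {g : G} {M M' : Gam Q} (h : Lf e g M) (h' : Lf e g M') (hM : PR R M) : PR R M' := by
  obtain ⟨a, rfl⟩ := h.eq_one_of_scal hG h'
  exact hM.mul (PR.scal a)

theorem cR_eq (hG : Good Q) {g : G} {M M' : Gam Q} (h : Lf e g M) (h' : Lf e g M') (hM : PR R M) (hM' : PR R M') :
    cR hM = cR hM' := by
  obtain ⟨a, rfl⟩ := h.eq_one_of_scal hG h'
  exact (cR_scal hM a hM').symm

/-- the action on `End R` -/
noncomputable def aR (hG : Good Q) (e : S ≃* P Q) (R : Submodule F V) : St e R →* RingAut (Module.End F R) :=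
  MonoidHom.mk' (fun g => cR (sM_pr g)) (fun g h => by
    rw [← cR_mul]
    exact cR_eq (e := e) hG (sM_lf (g * h)) ((sM_lf g).mul (sM_lf h)) _ _)

theorem aR_spec (hG : Good Q) (g : St e R) {M : Gam Q} (hM : Lf e g.1 M) (h : PR R M) : aR hG e R g = cR h :=
  cR_eq hG (sM_lf g) hM _ _

variable {n : ℕ}

/-- the action on matrices -/
noncomputable def pi' (hG : Good Q) (e : S ≃* P Q) (R : Submodule F V) (b : Module.Basis (Fin n) F R) :
    St e R →* RingAut (Matrix (Fin n) (Fin n) (Ex F)) :=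
  ext.comp ((rcongr (LinearMap.toMatrixAlgEquiv b).toRingEquiv).comp (aR hG e R))

theorem pi'_apply (hG : Good Q) (b : Module.Basis (Fin n) F R) (g : St e R) : pi' hG e R b g =
    ext (rcongr (LinearMap.toMatrixAlgEquiv b).toRingEquiv (aR hG e R g)) := rfl

theorem g0_inv (b : Module.Basis (Fin n) F R) (A : Matrix.SpecialLinearGroup (Fin n) F) (r : R) :
    Matrix.toLin b b A.1 (Matrix.toLin b b (A⁻¹).1 r) = r := by
  have h1 : (Matrix.toLin b b A.1).comp (Matrix.toLin b b (A⁻¹).1) = LinearMap.id := by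
    rw [← Matrix.toLin_mul b b b, ← Matrix.SpecialLinearGroup.coe_mul, mul_inv_cancel,
      Matrix.SpecialLinearGroup.coe_one, Matrix.toLin_one]
  exact LinearMap.congr_fun h1 r

theorem pr_of_lft (b : Module.Basis (Fin n) F R) (A : Matrix.SpecialLinearGroup (Fin n) F) {h : V ≃ₗ[F] V}
    (hE : h ∈ E Q) (hr : ∀ r : R, h r = Matrix.toLin b b A.1 r) : PR R (ofO Q ⟨h, E_le_O hE⟩) := by
  intro v
  change h v ∈ R ↔ v ∈ R
  constructor
  · intro hv
    have h1 := hr (Matrix.toLin b b (A⁻¹).1 ⟨h v, hv⟩)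
    rw [g0_inv] at h1
    have h2 := h.injective h1
    rw [← h2]
    exact (Matrix.toLin b b (A⁻¹).1 ⟨h v, hv⟩).2
  · intro hv
    rw [hr ⟨v, hv⟩]
    exact (Matrix.toLin b b A.1 ⟨v, hv⟩).2

theorem cR_lft (b : Module.Basis (Fin n) F R) (A : Matrix.SpecialLinearGroup (Fin n) F) {h : V ≃ₗ[F] V}
    (hE : h ∈ E Q) (hr : ∀ r : R, h r = Matrix.toLin b b A.1 r) (hpr : PR R (ofO Q ⟨h, E_le_O hE⟩))
    (B : Matrix (Fin n) (Fin n) F) :
    rcongr (LinearMap.toMatrixAlgEquiv b).toRingEquiv (cR hpr) B = A.1 * B * (A⁻¹).1 := by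
  have h2 : cR hpr ((LinearMap.toMatrixAlgEquiv b).toRingEquiv.symm B) =
      (LinearMap.toMatrixAlgEquiv b).toRingEquiv.symm (A.1 * B * (A⁻¹).1) := by
    rw [map_mul, map_mul]
    ext r : 1
    have h1 : (mR hpr).symm r = Matrix.toLin b b (A⁻¹).1 r := by
      rw [AddEquiv.symm_apply_eq]
      apply Subtype.ext
      change (r : V) = h (Matrix.toLin b b (A⁻¹).1 r)
      rw [hr, g0_inv]
    rw [cR_apply, h1]
    apply Subtype.ext
    exact hr _
  rw [rcongr_apply, h2, RingEquiv.apply_symm_apply]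

theorem ext_inner (u : H308.CA.SU (Fin n) (Ex F)) (α : RingAut (Matrix (Fin n) (Fin n) F))
    (hα : ∀ B, α B = (toSL u).1 * B * ((toSL u)⁻¹).1) : ext α = cu u := by
  refine RingEquiv.ext fun X => ?_
  rw [ext_apply, cu_apply]
  apply mat_ext
  · rw [map_mul, map_mul, H683.CA.p1_star, H683.CA.p2_mt_eq, ← H683.CA.coe_toSL, transpose_transpose]
    exact hα _
  · rw [map_mul, map_mul, H683.CA.p2_star, H683.CA.p2_mt_eq, ← H683.CA.coe_toSL]
    rw [H683.CA.p2_mk2, hα, transpose_mul, transpose_mul, transpose_transpose, mul_assoc]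

theorem exists_pi [FiniteDimensional F V] (hG : Good Q) (hR : Ts Q R) (b : Module.Basis (Fin n) F R)
    (u : H308.CA.SU (Fin n) (Ex F)) : ∃ g : St e R, pi' hG e R b g = cu u := by
  obtain ⟨h, hE, hr, -⟩ := exists_lft hG hR (Matrix.toLin b b (toSL u).1) ⟨1, one_ne_zero, by
    rw [LinearMap.det_toLin, (toSL u).2, one_mul]⟩
  have hpr := pr_of_lft b (toSL u) hE hr
  have hlf : Lf e (el e ⟨h, hE⟩) (ofO Q ⟨h, E_le_O hE⟩) := lf_el e ⟨h, hE⟩
  obtain ⟨g, hg⟩ : ∃ g : St e R, (g : G) = el e ⟨h, hE⟩ := ⟨⟨el e ⟨h, hE⟩, ⟨_, hlf, hpr⟩⟩, rfl⟩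
  have hlf' : Lf e (g : G) (ofO Q ⟨h, E_le_O hE⟩) := by rw [hg]; exact hlf
  refine ⟨g, ?_⟩
  rw [pi'_apply, aR_spec hG g hlf' hpr]
  exact ext_inner u _ (cR_lft b (toSL u) hE hr hpr)

/-- the quotient group acting faithfully -/
abbrev Gq (hG : Good Q) (e : S ≃* P Q) (R : Submodule F V) (b : Module.Basis (Fin n) F R) : Type u :=
  St e R ⧸ (pi' hG e R b).ker

/-- the faithful action -/
noncomputable def ka (hG : Good Q) (e : S ≃* P Q) (R : Submodule F V) (b : Module.Basis (Fin n) F R) :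
    Gq hG e R b →* RingAut (Matrix (Fin n) (Fin n) (Ex F)) := QuotientGroup.kerLift (pi' hG e R b)

theorem ka_inj (hG : Good Q) (e : S ≃* P Q) (R : Submodule F V) (b : Module.Basis (Fin n) F R) :
    Function.Injective (ka hG e R b) := QuotientGroup.kerLift_injective _

theorem ka_mk (hG : Good Q) (e : S ≃* P Q) (R : Submodule F V) (b : Module.Basis (Fin n) F R) (g : St e R) :
    ka hG e R b (g : Gq hG e R b) = pi' hG e R b g := rfl

/-- the inner elements -/
noncomputable def jq [FiniteDimensional F V] (hG : Good Q) (e : S ≃* P Q) (hR : Ts Q R) (b : Module.Basis (Fin n) F R) :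
    H308.CA.SU (Fin n) (Ex F) →* Gq hG e R b :=
  (MonoidHom.ofInjective (ka_inj hG e R b)).symm.toMonoidHom.comp
    (cu.codRestrict (ka hG e R b).range (fun u => by
      obtain ⟨g, hg⟩ := exists_pi (e := e) hG hR b u
      exact ⟨(g : Gq hG e R b), hg⟩))

theorem ka_jq [FiniteDimensional F V] (hG : Good Q) (e : S ≃* P Q) (hR : Ts Q R) (b : Module.Basis (Fin n) F R)
    (u : H308.CA.SU (Fin n) (Ex F)) : ka hG e R b (jq hG e hR b u) = cu u :=
  congrArg Subtype.val ((MonoidHom.ofInjective (ka_inj hG e R b)).apply_symm_apply _)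

/-- the `TA` structure -/
noncomputable def tq [FiniteDimensional F V] (hG : Good Q) (e : S ≃* P Q) (hR : Ts Q R) (b : Module.Basis (Fin n) F R) :
    TA (Gq hG e R b) (Fin n) (Ex F) where
  ρ := ka hG e R b
  st g a := by
    obtain ⟨g, rfl⟩ := QuotientGroup.mk_surjective g
    rw [ka_mk, pi'_apply, ext_star]
  j := jq hG e hR b
  ρ_j u a := by rw [ka_jq, cu_apply]
  conj_j g u v h := by
    apply ka_inj hG e R b
    rw [map_mul, map_mul, map_inv, ka_jq, ka_jq]
    ext a : 1
    change ka hG e R b g (mt u * ((ka hG e R b g)⁻¹ a) * star (mt u)) = mt v * a * star (mt v)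
    have hst : ∀ x, ka hG e R b g (star x) = star (ka hG e R b g x) := by
      intro x
      obtain ⟨g, rfl⟩ := QuotientGroup.mk_surjective g
      rw [ka_mk, pi'_apply, ext_star]
    rw [map_mul, map_mul, hst, ← h]
    have h2 : ka hG e R b g ((ka hG e R b g)⁻¹ a) = a := (ka hG e R b g).apply_symm_apply a
    rw [h2]

end grp

end Cfsg.Agent.H55.CO.TS
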